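import Mathlib

/-!
Four by four matrices of order thirteen over the field with eight elements: no non-zero matrix `X` satisfies
`A X σ(A)ᵀ = X`, where `σ` squares entries.
-/

set_option autoImplicit false

namespace Cfsg.Agent.H59.PSpSixThree

open Polynomial

variable {F : Type*} [Field F] [Fintype F]

set_option maxHeartbeats 800000 in
theorem exists_minpoly_data (hF : Fintype.card F = 8) (A : Matrix (Fin 4) (Fin 4) F) (hA : A ^ 13 = 1) (h1 : A ≠ 1) :
    ∃ f : F[X], Irreducible f ∧ aeval A f = 0 ∧
      ∀ [Fact (Irreducible f)] (e : ℕ), aeval ((AdjoinRoot.root f) ^ e) f = 0 → e % 13 ∈ ({1, 8, 12, 5} : Finset ℕ) := by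
  classical
  set μ := minpoly F A with hμdef
  have hint : IsIntegral F A := Algebra.IsIntegral.isIntegral A
  have hμm : μ.Monic := minpoly.monic hint
  have hμdeg : μ.natDegree ≤ 4 := by
    have h := Polynomial.natDegree_le_of_dvd (Matrix.minpoly_dvd_charpoly A) (Matrix.charpoly_monic A).ne_zero
    rwa [Matrix.charpoly_natDegree_eq_dim, Fintype.card_fin] at h
  have hμdvd : μ ∣ X ^ 13 - 1 := minpoly.dvd F A (by simp [hA])
  -- some irreducible factor other than `X - 1`
  obtain ⟨f, hfi, hfm, hfμ, hf1⟩ : ∃ f : F[X], Irreducible f ∧ f.Monic ∧ f ∣ μ ∧ ¬ f ∣ X - 1 := by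
    by_contra hall
    push Not at hall
    have hsq : μ ∣ (X - 1) ^ 4 := by
      have hX : (X - 1 : F[X]) = X - C 1 := by rw [map_one]
      obtain ⟨w, hw, hwn⟩ :=
        (FiniteMultiplicity.of_prime_left (prime_X_sub_C (1 : F)) hμm.ne_zero).exists_eq_pow_mul_and_not_dvd
      have hwm : w.Monic := ((monic_X_sub_C (1 : F)).pow _).of_mul_monic_left (hw ▸ hμm)
      have hw1 : w = 1 := by
        by_contra hne
        obtain ⟨f, hfm, hfi, hfw⟩ := Polynomial.exists_monic_irreducible_factor w
          (fun hu => hne (hwm.eq_one_of_isUnit hu))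
        have h' := hall f hfi hfm (hw ▸ hfw.mul_left _)
        rw [hX] at h'
        exact hwn ((eq_of_monic_of_associated hfm (monic_X_sub_C 1)
          (hfi.associated_of_dvd (irreducible_X_sub_C 1) h')) ▸ hfw)
      rw [hw1, mul_one] at hw
      rw [hX, hw]
      refine pow_dvd_pow _ ?_
      have := congrArg Polynomial.natDegree hw
      rw [natDegree_pow, natDegree_X_sub_C, mul_one] at this
      omega
    obtain ⟨v, hv⟩ := hsq
    have h4 := congrArg (aeval A) hv
    rw [map_mul, minpoly.aeval, zero_mul, map_pow, map_sub, aeval_X, map_one] at h4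
    haveI : CharP F 2 := by
      obtain ⟨q, hq⟩ := CharP.exists F
      haveI := hq
      obtain ⟨k, hqp, hk⟩ := FiniteField.card F q
      rw [hF] at hk
      have h2 : q ∣ 8 := hk ▸ dvd_pow_self q k.ne_zero
      have hq2 : q = 2 := (Nat.prime_dvd_prime_iff_eq hqp Nat.prime_two).1
        (hqp.dvd_of_dvd_pow (show q ∣ 2 ^ 3 from h2))
      exact hq2 ▸ hq
    have h4' : A ^ 4 = 1 := by
      have hc : (A - 1) ^ 2 ^ 2 = A ^ 2 ^ 2 - 1 := by
        haveI : CharP (Matrix (Fin 4) (Fin 4) F) 2 := inferInstance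
        rw [sub_pow_char_pow_of_commute _ _ (Commute.one_right A), one_pow]
      norm_num at hc
      rw [h4] at hc
      exact sub_eq_zero.1 hc.symm
    apply h1
    calc A = A ^ 13 := by rw [show (13 : ℕ) = 4 * 3 + 1 by norm_num, pow_succ, pow_mul, h4', one_pow, one_mul]
      _ = 1 := hA
  haveI : Fact (Irreducible f) := ⟨hfi⟩
  haveI : Module.Finite F (AdjoinRoot f) := hfm.finite_adjoinRoot
  haveI : Finite (AdjoinRoot f) := Module.finite_of_finite F
  haveI := Fintype.ofFinite (AdjoinRoot f)
  have hfin : Module.finrank F (AdjoinRoot f) = f.natDegree := finrank_quotient_span_eq_natDegree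
  set α : AdjoinRoot f := AdjoinRoot.root f with hα
  have hα0 : aeval α f = 0 := by rw [hα, AdjoinRoot.aeval_eq, AdjoinRoot.mk_self]
  have hα13 : α ^ 13 = 1 := by
    have := AdjoinRoot.mk_eq_zero.2 (hfμ.trans hμdvd)
    rwa [map_sub, map_pow, AdjoinRoot.mk_X, map_one, sub_eq_zero] at this
  have hαne : α ≠ 1 := fun h => hf1 (AdjoinRoot.mk_eq_zero.1 (by rw [map_sub, AdjoinRoot.mk_X, map_one, ← hα, h, sub_self]))
  have hord : orderOf α = 13 := orderOf_eq_prime (hp := ⟨by norm_num⟩) hα13 hαne
  have hd4 : f.natDegree = 4 := by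
    have hle : f.natDegree ≤ 4 := (Polynomial.natDegree_le_of_dvd hfμ hμm.ne_zero).trans hμdeg
    have hpos : 1 ≤ f.natDegree := hfi.natDegree_pos
    have hαn : α ≠ 0 := fun h => by
      rw [h, zero_pow (by norm_num)] at hα13
      exact zero_ne_one hα13
    have hdiv : 13 ∣ 8 ^ f.natDegree - 1 := by
      have := orderOf_dvd_of_pow_eq_one (FiniteField.pow_card_sub_one_eq_one α hαn)
      rwa [hord, Module.card_eq_pow_finrank (K := F), hfin, hF] at this
    interval_cases f.natDegree <;> omega
  have hfeq : f = μ := eq_of_monic_of_dvd_of_natDegree_le hfm hμm hfμ (by omega) |>.symm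
  refine ⟨f, hfi, by rw [hfeq]; exact minpoly.aeval F A, ?_⟩
  intro _ e he
  have hfrob : ∀ β : AdjoinRoot f, aeval β f = 0 → aeval (β ^ 8) f = 0 := by
    intro β hβ
    have h : aeval (β ^ Fintype.card F) f = (aeval β f) ^ Fintype.card F := by
      rw [← map_pow, ← FiniteField.expand_card, Polynomial.expand_aeval]
    rw [hF, hβ, zero_pow (by norm_num)] at h
    exact h
  have hmodpow : ∀ k : ℕ, α ^ k = α ^ (k % 13) := fun k => by
    rw [← hord]; exact (pow_mod_orderOf α k).symm
  have hfrob' : ∀ k : ℕ, aeval (α ^ k) f = 0 → aeval (α ^ ((k * 8) % 13)) f = 0 := fun k hk => by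
    rw [← hmodpow, pow_mul]; exact hfrob _ hk
  have r1 : aeval (α ^ 1) f = 0 := by rw [pow_one]; exact hα0
  have r8 : aeval (α ^ 8) f = 0 := hfrob' 1 r1
  have r12 : aeval (α ^ 12) f = 0 := hfrob' 8 r8
  have r5 : aeval (α ^ 5) f = 0 := hfrob' 12 r12
  by_contra hnot
  rw [hmodpow e] at he
  set T : Finset ℕ := insert (e % 13) {1, 8, 12, 5} with hT
  have hTlt : ∀ x ∈ T, x < 13 := by
    intro x hx
    simp only [hT, Finset.mem_insert, Finset.mem_singleton] at hx
    omega
  have hinj : Set.InjOn (fun x : ℕ => α ^ x) (T : Set ℕ) := by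
    intro x hx y hy hxy
    have h1 := hTlt x hx
    have h2 := hTlt y hy
    exact pow_injOn_Iio_orderOf (by rw [hord]; exact h1) (by rw [hord]; exact h2) hxy
  have hsub : T.image (fun x : ℕ => α ^ x) ⊆ (f.aroots (AdjoinRoot f)).toFinset := by
    intro β hβ
    obtain ⟨x, hx, rfl⟩ := Finset.mem_image.1 hβ
    rw [Multiset.mem_toFinset, Polynomial.mem_aroots]
    refine ⟨hfm.ne_zero, ?_⟩
    simp only [hT, Finset.mem_insert, Finset.mem_singleton] at hx
    rcases hx with rfl | rfl | rfl | rfl | rfl
    exacts [he, r1, r8, r12, r5]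
  have hc := (Finset.card_le_card hsub).trans (Multiset.toFinset_card_le _)
  rw [Finset.card_image_of_injOn hinj, hT, Finset.card_insert_of_notMem hnot] at hc
  have h5 := hc.trans ((Polynomial.card_roots' _).trans (Polynomial.natDegree_map _).le)
  rw [hd4] at h5
  simp at h5

/-- The squaring map. -/
theorem aeval_sq (σ : F →+* F) (hσ : ∀ x, σ x = x ^ 2) {L : Type*} [CommRing L] [Algebra F L] [CharP L 2]
    (f : F[X]) (β : L) : aeval (β ^ 2) (f.map σ) = (aeval β f) ^ 2 := by
  induction f using Polynomial.induction_on' with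
  | add a b ha hb =>
    rw [Polynomial.map_add, map_add, map_add, ha, hb]
    haveI : Fact (Nat.Prime 2) := ⟨Nat.prime_two⟩
    exact (add_pow_char (p := 2) _ _).symm
  | monomial k a =>
    rw [Polynomial.map_monomial, aeval_monomial, aeval_monomial, hσ, map_pow, mul_pow, ← pow_mul, ← pow_mul,
      mul_comm 2 k]

theorem aeval_mapMatrix (σ : F →+* F) (f : F[X]) (B : Matrix (Fin 4) (Fin 4) F) :
    aeval (σ.mapMatrix B) (f.map σ) = σ.mapMatrix (aeval B f) := by
  induction f using Polynomial.induction_on' with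
  | add a b ha hb => simp only [Polynomial.map_add, map_add, ha, hb]
  | monomial k a =>
    rw [Polynomial.map_monomial, aeval_monomial, aeval_monomial, map_mul, map_pow]
    congr 1
    rw [Matrix.algebraMap_eq_diagonal, Matrix.algebraMap_eq_diagonal, RingHom.mapMatrix_apply,
      Matrix.diagonal_map (map_zero σ)]
    rfl

theorem not_fixed (hF : Fintype.card F = 8) (σ : F →+* F) (hσ : ∀ x, σ x = x ^ 2)
    (A : Matrix (Fin 4) (Fin 4) F) (hA : A ^ 13 = 1) (h1 : A ≠ 1) :
    σ.mapMatrix A ≠ A ∧ ∀ X : Matrix (Fin 4) (Fin 4) F, A * X * (σ.mapMatrix A).transpose = X → X = 0 := by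
  classical
  obtain ⟨f, hfi, hfA, hroots⟩ := exists_minpoly_data hF A hA h1
  haveI : Fact (Irreducible f) := ⟨hfi⟩
  haveI : CharP F 2 := by
    obtain ⟨q, hq⟩ := CharP.exists F
    haveI := hq
    obtain ⟨k, hqp, hk⟩ := FiniteField.card F q
    rw [hF] at hk
    have h2 : q ∣ 8 := hk ▸ dvd_pow_self q k.ne_zero
    exact ((Nat.prime_dvd_prime_iff_eq hqp Nat.prime_two).1
        (hqp.dvd_of_dvd_pow (show q ∣ 2 ^ 3 from h2))) ▸ hq
  haveI : CharP (AdjoinRoot f) 2 := charP_of_injective_algebraMap (algebraMap F (AdjoinRoot f)).injective 2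
  set α : AdjoinRoot f := AdjoinRoot.root f
  have hσ3 : ∀ x : F, σ (σ (σ x)) = x := fun x => by
    rw [hσ, hσ, hσ, ← pow_mul, ← pow_mul]
    conv_rhs => rw [← FiniteField.pow_card x, hF]
  refine ⟨fun hfix => ?_, fun X hX => ?_⟩
  · have h2 : aeval A (f.map σ) = 0 := by
      conv_lhs => rw [← hfix]
      rw [aeval_mapMatrix, hfA, map_zero]
    have hdvd : f ∣ f.map σ := by
      by_contra hn
      obtain ⟨u, v, huv⟩ := (hfi.coprime_iff_not_dvd.2 hn)
      have := congrArg (aeval A) huv
      rw [map_add, map_mul, map_mul, hfA, h2, mul_zero, mul_zero, add_zero, map_one] at this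
      exact zero_ne_one this
    obtain ⟨w, hw⟩ := hdvd
    have h3 : aeval α (f.map σ) = 0 := by
      rw [hw, map_mul, AdjoinRoot.aeval_eq, AdjoinRoot.mk_self, zero_mul]
    have h4 : (aeval (α ^ 7) f) ^ 2 = 0 := by
      rw [← aeval_sq σ hσ, ← pow_mul]
      have hα13 : α ^ 13 = 1 := by
        obtain ⟨u, hu⟩ : f ∣ Polynomial.X ^ 13 - 1 := by
          by_contra hn
          obtain ⟨u, v, huv⟩ := (hfi.coprime_iff_not_dvd.2 hn)
          have h' := congrArg (aeval A) huv
          simp [hfA, hA] at h'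
        have := congrArg (aeval α) hu
        rw [map_mul, AdjoinRoot.aeval_eq f, AdjoinRoot.mk_self, zero_mul] at this
        simpa [sub_eq_zero] using this
      rw [show α ^ (7 * 2) = α by rw [show (7 * 2 : ℕ) = 13 + 1 by norm_num, pow_succ, hα13, one_mul], h3]
    have := hroots 7 (pow_eq_zero_iff (two_ne_zero) |>.1 h4)
    simp at this
  -- the fixed matrices
  set C : Matrix (Fin 4) (Fin 4) F := ((σ.mapMatrix A) ^ 12).transpose with hC
  have hAX : A * X = X * C := by
    calc A * X = A * X * (((σ.mapMatrix A) ^ 13).transpose) := by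
          rw [← map_pow, hA, map_one, Matrix.transpose_one, mul_one]
      _ = A * X * (σ.mapMatrix A).transpose * C := by
          rw [pow_succ, Matrix.transpose_mul, hC, ← mul_assoc]
      _ = X * C := by rw [hX]
  have hpoly : ∀ P : F[X], aeval A P * X = X * aeval C P := by
    intro P
    induction P using Polynomial.induction_on' with
    | add a b ha hb => rw [map_add, map_add, add_mul, mul_add, ha, hb]
    | monomial k a =>
      rw [aeval_monomial, aeval_monomial, mul_assoc]
      have hk : ∀ k : ℕ, A ^ k * X = X * C ^ k := fun k => by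
        induction k with
        | zero => simp
        | succ k ih => rw [pow_succ', mul_assoc, ih, ← mul_assoc, hAX, mul_assoc, ← pow_succ']
      rw [hk, ← mul_assoc, Algebra.commutes, mul_assoc]
  have hXC : X * aeval C f = 0 := by rw [← hpoly, hfA, zero_mul]
  set f' : F[X] := f.map (σ.comp σ) with hf'
  have hback : f'.map σ = f := by
    rw [hf', Polynomial.map_map]
    conv_rhs => rw [← Polynomial.map_id (p := f)]
    congr 1
    exact RingHom.ext fun x => hσ3 x
  have hunit : IsUnit (aeval C f) := by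
    have hexp : ¬ f ∣ expand F 12 f' := by
      rintro ⟨w, hw⟩
      have h5 := congrArg (aeval α) hw
      rw [map_mul, AdjoinRoot.aeval_eq f, AdjoinRoot.mk_self, zero_mul, Polynomial.expand_aeval] at h5
      have h6 : (aeval (α ^ 24) f) = 0 := by
        have h8 := aeval_sq σ hσ f' (α ^ 12)
        rw [h5, zero_pow two_ne_zero, hback, ← pow_mul] at h8
        exact h8
      have := hroots 24 h6
      simp at this
    obtain ⟨u, v, huv⟩ := hfi.coprime_iff_not_dvd.2 hexp
    have h7 := congrArg (aeval A) huv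
    rw [map_add, map_mul, map_mul, hfA, mul_zero, zero_add, map_one, Polynomial.expand_aeval] at h7
    have hu1 : IsUnit (aeval (A ^ 12) f') := by
      refine ⟨⟨aeval (A ^ 12) f', aeval A v, ?_, h7⟩, rfl⟩
      exact mul_eq_one_comm.1 h7
    have hu2 : IsUnit (aeval ((σ.mapMatrix A) ^ 12) f) := by
      rw [← hback, ← map_pow, aeval_mapMatrix]
      exact hu1.map _
    have ht : ∀ (P : F[X]) (B : Matrix (Fin 4) (Fin 4) F), aeval B.transpose P = (aeval B P).transpose := by
      intro P B
      induction P using Polynomial.induction_on' with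
      | add a b ha hb => rw [map_add, map_add, Matrix.transpose_add, ha, hb]
      | monomial k a =>
        rw [aeval_monomial, aeval_monomial, Matrix.transpose_mul, Matrix.transpose_pow,
          Algebra.commutes a (B.transpose ^ k), Matrix.algebraMap_eq_diagonal, Matrix.diagonal_transpose]
    rw [hC, ht]
    exact (Matrix.isUnit_transpose _).2 hu2
  exact hunit.mul_left_eq_zero.1 hXC

end Cfsg.Agent.H59.PSpSixThree
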