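import Cfsg.Agent.H58.SuzukiOut
import Cfsg.Agent.H7.SzPartition
import Cfsg.Agent.H59.PSpSixThree.OctalFixed

/-!
`Sz(8)` extended by its field automorphism, acting on copies of the space of four by four matrices over the field
with eight elements: large groups with prime graph edges exactly `2-3`, `2-5`, `2-7`, `3-5`.
-/

set_option autoImplicit false
set_option linter.style.haveILetI false

namespace Cfsg.Agent.H59.PSpSixThree

open Cfsg.Agent.H7 Cfsg.Agent.H58

/-- The orders `p * q` of the edges. -/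
def edges : Finset ℕ := {6, 10, 14, 15}

section Suzuki

variable {F : Type*} [Field F] (H : SzHyp F 1)

theorem pw_one (x : F) : pw (1 : ZMod (2 * 1 + 1)) x = x ^ 2 := by
  show x ^ 2 ^ (1 : ℕ) = x ^ 2
  rw [pow_one]

theorem card_F (H : SzHyp F 1) : Nat.card F = 8 := by rw [H.card]; norm_num

theorem card_sz (H : SzHyp F 1) : Nat.card (Cfsg.Sz F 1) = 29120 := by rw [H.card_Sz]; norm_num

/-- The action of the field automorphisms. -/
noncomputable def psi : Multiplicative (ZMod (2 * 1 + 1)) →* MulAut (Cfsg.Sz F 1) where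
  toFun t := SzOut.fieldAut H t.toAdd
  map_one' := by
    ext g r c
    exact H.pw_zero_index _
  map_mul' s t := by
    ext g r c
    exact (H.pw_add_index s.toAdd t.toAdd _).symm

theorem psi_apply (t : Multiplicative (ZMod (2 * 1 + 1))) (g : Cfsg.Sz F 1) :
    ((psi H t g).1 : Matrix (Fin 4) (Fin 4) F) = (SzOut.pwRing H t.toAdd).mapMatrix (g.1 : Matrix (Fin 4) (Fin 4) F) :=
  rfl

/-- `Sz(8)` extended by its field automorphism of order three. -/
abbrev K := Cfsg.Sz F 1 ⋊[psi H] Multiplicative (ZMod (2 * 1 + 1))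

/-- The squaring map. -/
abbrev sq : F →+* F := SzOut.pwRing H 1

/-- The action on matrices. -/
noncomputable def act (k : K H) (X : Matrix (Fin 4) (Fin 4) F) : Matrix (Fin 4) (Fin 4) F :=
  (k.left.1 : Matrix (Fin 4) (Fin 4) F) * (SzOut.pwRing H k.right.toAdd).mapMatrix X *
    ((sq H).mapMatrix (k.left.1 : Matrix (Fin 4) (Fin 4) F)).transpose

theorem act_one (X : Matrix (Fin 4) (Fin 4) F) : act H 1 X = X := by
  have h0 : (SzOut.pwRing H (0 : ZMod (2 * 1 + 1))) = RingHom.id F := RingHom.ext fun a => H.pw_zero_index a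
  simp [act, h0]

theorem act_mul (k l : K H) (X : Matrix (Fin 4) (Fin 4) F) : act H (k * l) X = act H k (act H l X) := by
  have hc : ∀ i j : ZMod (2 * 1 + 1), ∀ Y : Matrix (Fin 4) (Fin 4) F,
      (SzOut.pwRing H i).mapMatrix ((SzOut.pwRing H j).mapMatrix Y) = (SzOut.pwRing H (i + j)).mapMatrix Y := by
    intro i j Y
    ext r c
    exact H.pw_add_index i j _
  set τ := SzOut.pwRing H k.right.toAdd with hτ
  have hl : (((k * l).left).1 : Matrix (Fin 4) (Fin 4) F) =
      (k.left.1 : Matrix (Fin 4) (Fin 4) F) * τ.mapMatrix (l.left.1 : Matrix (Fin 4) (Fin 4) F) := rfl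
  have hr : (k * l).right.toAdd = k.right.toAdd + l.right.toAdd := rfl
  have ht : τ.mapMatrix (((sq H).mapMatrix (l.left.1 : Matrix (Fin 4) (Fin 4) F)).transpose) =
      ((sq H).mapMatrix (τ.mapMatrix (l.left.1 : Matrix (Fin 4) (Fin 4) F))).transpose := by
    ext r c
    show pw k.right.toAdd (pw 1 ((l.left.1 : Matrix (Fin 4) (Fin 4) F) c r)) =
      pw 1 (pw k.right.toAdd ((l.left.1 : Matrix (Fin 4) (Fin 4) F) c r))
    rw [H.pw_add_index, H.pw_add_index, add_comm]
  simp only [act, hl, hr, ← hc, map_mul, ← hτ, ht, Matrix.transpose_mul, mul_assoc]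

theorem act_add (k : K H) (X Y : Matrix (Fin 4) (Fin 4) F) : act H k (X + Y) = act H k X + act H k Y := by
  simp [act, map_add, mul_add, add_mul]

/-- The coordinatewise action. -/
noncomputable def rep (N : ℕ) : K H →* MulAut (Multiplicative (Fin N → Matrix (Fin 4) (Fin 4) F)) where
  toFun k :=
    { toFun := fun x => .ofAdd fun i => act H k (x.toAdd i)
      invFun := fun x => .ofAdd fun i => act H k⁻¹ (x.toAdd i)
      left_inv := fun x => Multiplicative.toAdd.injective (funext fun i => by
        simp [← act_mul, act_one])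
      right_inv := fun x => Multiplicative.toAdd.injective (funext fun i => by
        simp [← act_mul, act_one])
      map_mul' := fun x y => Multiplicative.toAdd.injective (funext fun i => act_add H k _ _) }
  map_one' := MulEquiv.ext fun x => Multiplicative.toAdd.injective (funext fun i => act_one H _)
  map_mul' k l := MulEquiv.ext fun x => Multiplicative.toAdd.injective (funext fun i => act_mul H k l _)

/-- The large group. -/
abbrev Big (N : ℕ) := Multiplicative (Fin N → Matrix (Fin 4) (Fin 4) F) ⋊[rep H N] K H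

theorem mem_toriOrders {k : ℕ} (h : k ∈ SzHyp.toriOrders 1) : k = 7 ∨ k = 13 ∨ k = 5 := by
  simpa [SzHyp.toriOrders] using h

include H in
theorem sz_no_element [Finite F] {p q : ℕ} (hp : p.Prime) (hq : q.Prime) (hpq : p ≠ q) (hq2 : q ≠ 2)
    (g : Cfsg.Sz F 1) : orderOf g ≠ p * q := by
  intro hg
  have hgp : orderOf (g ^ p) = q := by
    rw [orderOf_pow' g hp.ne_zero, hg, Nat.gcd_eq_right (dvd_mul_right p q),
      Nat.mul_div_cancel_left q hp.pos]
  have hne : g ^ p ≠ 1 := fun h => hq.one_lt.ne (by rw [← hgp, h, orderOf_one])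
  have hQ : ¬ ∃ x, x * g ^ p * x⁻¹ ∈ H.Q :=
    H.not_conj_Q_of_coprime hne (n := q) (hq.odd_of_ne_two hq2) (by rw [hgp])
  obtain ⟨-, hcard, -⟩ := H.centralizer_cases hne hQ
  have hmem : g ∈ Subgroup.centralizer ({g ^ p} : Set (Cfsg.Sz F 1)) :=
    Subgroup.mem_centralizer_singleton_iff.2 (Commute.self_pow g p).eq
  have hd := Subgroup.orderOf_dvd_natCard _ hmem
  rw [hg] at hd
  have hprime : (Nat.card (Subgroup.centralizer ({g ^ p} : Set (Cfsg.Sz F 1)))).Prime := by
    rcases mem_toriOrders hcard with h | h | h <;> rw [h] <;> norm_num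
  exact Nat.not_prime_mul hp.one_lt.ne' hq.one_lt.ne'
    (((hprime.eq_one_or_self_of_dvd _ hd).resolve_left (fun h => hp.one_lt.ne' (Nat.eq_one_of_mul_eq_one_right h))) ▸ hprime)

theorem fixed_of_psi {u : Multiplicative (ZMod (2 * 1 + 1))} (hu : u ≠ 1) {g : Cfsg.Sz F 1}
    (h : psi H u g = g) :
    (sq H).mapMatrix (g.1 : Matrix (Fin 4) (Fin 4) F) = (g.1 : Matrix (Fin 4) (Fin 4) F) := by
  have h1 : psi H (Multiplicative.ofAdd 1) g = g := by
    have hcases : ∀ v : Multiplicative (ZMod (2 * 1 + 1)), v ≠ 1 →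
        v = Multiplicative.ofAdd 1 ∨ v * v = Multiplicative.ofAdd 1 := by decide
    rcases hcases u hu with h' | h'
    · rw [← h']; exact h
    · rw [← h', map_mul, MulAut.mul_apply, h, h]
  exact (psi_apply H _ g).symm.trans (congrArg (fun x : Cfsg.Sz F 1 => (x.1 : Matrix (Fin 4) (Fin 4) F)) h1)

theorem dm_eq_diagonal (k : Fˣ) : ((H.ds k).1 : Matrix (Fin 4) (Fin 4) F) =
    Matrix.diagonal ![(k : F) ^ 3, (k : F) ^ 2, ((k : F) ^ 2)⁻¹, ((k : F) ^ 3)⁻¹] := by
  ext i j
  fin_cases i <;> fin_cases j <;> simp [SzHyp.ds, dm]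

include H in
theorem unit_pow_seven [Finite F] (k : Fˣ) : (k : F) ^ 7 = 1 := by
  have h : k ^ Nat.card Fˣ = 1 := pow_card_eq_one'
  rw [H.card_units] at h
  rw [← Units.val_pow_eq_pow_val]
  simpa using congrArg Units.val h

theorem no_fixed_seven [Finite F] (g : Cfsg.Sz F 1) (hg : orderOf g = 7) :
    (sq H).mapMatrix (g.1 : Matrix (Fin 4) (Fin 4) F) ≠ (g.1 : Matrix (Fin 4) (Fin 4) F) := by
  classical
  intro hfix
  obtain ⟨x, hx⟩ := H.exists_conj_mem_T (p := 7) (by norm_num) hg (by norm_num)
  obtain ⟨k, hk⟩ := hx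
  have hk' : H.ds k = x * g * x⁻¹ := hk
  set D : Matrix (Fin 4) (Fin 4) F := ((H.ds k).1 : Matrix (Fin 4) (Fin 4) F) with hD
  have hc : D.charpoly = (g.1 : Matrix (Fin 4) (Fin 4) F).charpoly := by
    let X : GL (Fin 4) F := Matrix.SpecialLinearGroup.toGL x.1
    have h := Matrix.charpoly_units_conj X (g.1 : Matrix (Fin 4) (Fin 4) F)
    rw [← h, hD, hk']
    congr 1
    simp [X, Matrix.coe_units_inv, Matrix.SpecialLinearGroup.coe_inv, Matrix.inv_def]
  have hmap : D.charpoly.map (sq H) = D.charpoly := by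
    rw [hc, ← Matrix.charpoly_map]
    exact congrArg Matrix.charpoly hfix
  rw [hD, dm_eq_diagonal, Matrix.charpoly_diagonal] at hmap
  have hk7 := unit_pow_seven H k
  have he := congrArg (Polynomial.eval ((k : F) ^ 6)) hmap
  rw [Polynomial.map_prod, Polynomial.eval_prod, Polynomial.eval_prod] at he
  have hl : (∏ i : Fin 4, Polynomial.eval ((k : F) ^ 6) ((Polynomial.X - Polynomial.C
      (![(k : F) ^ 3, (k : F) ^ 2, ((k : F) ^ 2)⁻¹, ((k : F) ^ 3)⁻¹] i)).map (sq H))) = 0 := by
    refine Finset.prod_eq_zero (Finset.mem_univ 0) ?_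
    have hsq : ∀ z : F, (sq H) z = z ^ 2 := fun z => pw_one z
    simp [hsq, ← pow_mul]
  rw [hl] at he
  obtain ⟨i, -, hi⟩ := Finset.prod_eq_zero_iff.1 he.symm
  simp only [Polynomial.eval_sub, Polynomial.eval_X, Polynomial.eval_C, sub_eq_zero] at hi
  have hk0 : (k : F) ≠ 0 := k.ne_zero
  have h4 : ∀ e : ℕ, (k : F) ^ e = 1 → e.Coprime 7 → k = 1 := fun e he hco => by
    have h1 := pow_gcd_eq_one.2 ⟨he, hk7⟩
    rw [hco, pow_one] at h1
    exact Units.ext h1
  have hk1 : k = 1 := by
    fin_cases i <;> simp at hi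
    · refine h4 3 ?_ (by norm_num)
      calc (k : F) ^ 3 = (k : F) ^ 3 * (k : F) ^ 7 := by rw [hk7, mul_one]
        _ = (k : F) ^ 6 * (k : F) ^ 4 := by ring
        _ = (k : F) ^ 3 * (k : F) ^ 4 := by rw [hi]
        _ = 1 := by rw [← pow_add]; exact hk7
    · refine h4 4 ?_ (by norm_num)
      calc (k : F) ^ 4 = (k : F) ^ 4 * (k : F) ^ 7 := by rw [hk7, mul_one]
        _ = (k : F) ^ 6 * (k : F) ^ 5 := by ring
        _ = (k : F) ^ 2 * (k : F) ^ 5 := by rw [hi]
        _ = 1 := by rw [← pow_add]; exact hk7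
    · refine h4 8 ?_ (by norm_num)
      rw [show (8 : ℕ) = 6 + 2 by norm_num, pow_add, hi, inv_mul_cancel₀ (pow_ne_zero _ hk0)]
    · refine h4 9 ?_ (by norm_num)
      rw [show (9 : ℕ) = 6 + 3 by norm_num, pow_add, hi, inv_mul_cancel₀ (pow_ne_zero _ hk0)]
  have hg1 : g = 1 := by
    have h1 : x * g * x⁻¹ = 1 := by rw [← hk', hk1]; exact map_one H.dsHom
    exact conj_eq_one_iff.1 h1
  rw [hg1, orderOf_one] at hg
  norm_num at hg

theorem no_fixed [Finite F] (g : Cfsg.Sz F 1) (hg : orderOf g = 7 ∨ orderOf g = 13) :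
    (sq H).mapMatrix (g.1 : Matrix (Fin 4) (Fin 4) F) ≠ (g.1 : Matrix (Fin 4) (Fin 4) F) := by
  rcases hg with hg | hg
  · exact no_fixed_seven H g hg
  · haveI := Fintype.ofFinite F
    refine (not_fixed (by rw [← Nat.card_eq_fintype_card]; exact card_F H) (sq H) (fun x => pw_one x) _ ?_ ?_).1
    · rw [← Matrix.SpecialLinearGroup.coe_pow, ← SubmonoidClass.coe_pow, ← hg, pow_orderOf_eq_one]
      simp
    · intro h
      have : g = 1 := Subtype.ext (Subtype.ext h)
      rw [this, orderOf_one] at hg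
      norm_num at hg

theorem conj_to_inr [Finite F] {s : K H} (hs : orderOf s = 3) :
    ∃ (c : K H) (u : Multiplicative (ZMod (2 * 1 + 1))), c * s * c⁻¹ = SemidirectProduct.inr u := by
  haveI : Fact (Nat.Prime 3) := ⟨Nat.prime_three⟩
  haveI := H.finite_Sz
  haveI : Finite (K H) := Finite.of_equiv _ SemidirectProduct.equivProd.symm
  have hcard : Nat.card (K H) = 29120 * 3 := by
    rw [SemidirectProduct.card, card_sz H, Nat.card_congr Multiplicative.toAdd, Nat.card_zmod]
  have hf : (Nat.card (K H)).factorization 3 = 1 := by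
    rw [hcard, Nat.factorization_mul (by norm_num) (by norm_num), Finsupp.add_apply,
      Nat.factorization_eq_zero_of_not_dvd (by norm_num), Nat.prime_three.factorization_self]
  let P : Sylow 3 (K H) := Sylow.ofCard (Subgroup.zpowers s) (by rw [Nat.card_zpowers, hs, hf, pow_one])
  let Q : Sylow 3 (K H) := Sylow.ofCard (SemidirectProduct.inr (φ := psi H)).range (by
    rw [← Nat.card_congr (MonoidHom.ofInjective SemidirectProduct.inr_injective).toEquiv,
      Nat.card_congr Multiplicative.toAdd, Nat.card_zmod, hf, pow_one])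
  obtain ⟨c, hc⟩ := MulAction.exists_smul_eq (K H) P Q
  have hmem : c * s * c⁻¹ ∈ (Q : Subgroup (K H)) := by
    rw [← hc, Sylow.coe_subgroup_smul]
    exact ⟨s, Subgroup.mem_zpowers s, rfl⟩
  obtain ⟨u, hu⟩ := hmem
  exact ⟨c, u, hu.symm⟩

theorem k_no_element [Finite F] {p q : ℕ} (hp : p.Prime) (hq : q.Prime) (hpq : p ≠ q) (hq2 : q ≠ 2)
    (h3 : q = 3 → p = 7 ∨ p = 13) (hp3 : p ≠ 3) (k : K H) : orderOf k ≠ p * q := by
  intro hk
  haveI := H.finite_Sz
  haveI : Finite (K H) := Finite.of_equiv _ SemidirectProduct.equivProd.symm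
  have hd : orderOf k.right ∣ 3 := by
    have h := orderOf_dvd_natCard k.right
    rwa [Nat.card_congr Multiplicative.toAdd, Nat.card_zmod] at h
  have hr : orderOf k.right ∣ p * q := hk ▸ orderOf_map_dvd SemidirectProduct.rightHom k
  by_cases hk1 : k.right = 1
  · have hkl : k = SemidirectProduct.inl k.left := by
      conv_lhs => rw [← SemidirectProduct.inl_left_mul_inr_right k, hk1, map_one, mul_one]
    rw [hkl, orderOf_injective _ SemidirectProduct.inl_injective] at hk
    exact sz_no_element H hp hq hpq hq2 _ hk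
  have ho : orderOf k.right = 3 := (Nat.prime_three.eq_one_or_self_of_dvd _ hd).resolve_left
    (fun h => hk1 (orderOf_eq_one_iff.1 h))
  rw [ho, Nat.prime_three.dvd_mul, Nat.prime_dvd_prime_iff_eq Nat.prime_three hp,
    Nat.prime_dvd_prime_iff_eq Nat.prime_three hq] at hr
  obtain rfl : q = 3 := (hr.resolve_left (Ne.symm hp3)).symm
  have hp' := h3 rfl
  have hs : orderOf (k ^ p) = 3 := by
    rw [orderOf_pow' k hp.ne_zero, hk, Nat.gcd_eq_right (dvd_mul_right p 3), Nat.mul_div_cancel_left 3 hp.pos]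
  have hg : orderOf (k ^ 3) = p := by
    rw [orderOf_pow' k three_ne_zero, hk, Nat.gcd_eq_right (dvd_mul_left 3 p), Nat.mul_div_cancel p three_pos]
  obtain ⟨c, u, hu⟩ := conj_to_inr H hs
  set g := c * k ^ 3 * c⁻¹ with hgdef
  have hgo : orderOf g = p := by
    rw [hgdef, ← hg]; simpa using MulEquiv.orderOf_eq (MulAut.conj c) (k ^ 3)
  have hgr : g.right = 1 := by
    have h1 : orderOf g.right ∣ p := hgo ▸ orderOf_map_dvd SemidirectProduct.rightHom g
    have h2 : orderOf g.right ∣ 3 := by
      have h := orderOf_dvd_natCard g.right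
      rwa [Nat.card_congr Multiplicative.toAdd, Nat.card_zmod] at h
    exact orderOf_eq_one_iff.1 (Nat.eq_one_of_dvd_coprimes ((Nat.coprime_primes hp Nat.prime_three).2 hp3) h1 h2)
  have hgl : g = SemidirectProduct.inl g.left := by
    conv_lhs => rw [← SemidirectProduct.inl_left_mul_inr_right g, hgr, map_one, mul_one]
  have hu1 : u ≠ 1 := by
    rintro rfl
    rw [map_one, conj_eq_one_iff] at hu
    rw [hu, orderOf_one] at hs
    norm_num at hs
  have hcomm : SemidirectProduct.inr u * g = g * SemidirectProduct.inr u := by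
    rw [← hu, hgdef]
    calc c * k ^ p * c⁻¹ * (c * k ^ 3 * c⁻¹) = c * (k ^ p * k ^ 3) * c⁻¹ := by group
      _ = c * (k ^ 3 * k ^ p) * c⁻¹ := by rw [(Commute.pow_pow_self k p 3).eq]
      _ = _ := by group
  have hfix : psi H u g.left = g.left := by
    have := congrArg SemidirectProduct.left hcomm
    simpa [hgr] using this
  refine no_fixed H g.left ?_ (fixed_of_psi H hu1 hfix)
  rw [hgl, orderOf_injective _ SemidirectProduct.inl_injective] at hgo
  rwa [hgo]

theorem big_eq_inl {N : ℕ} {y : Big H N} (h : y.right = 1) : y = SemidirectProduct.inl y.left := by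
  conv_lhs => rw [← SemidirectProduct.inl_left_mul_inr_right y, h, map_one, mul_one]

include H in
theorem big_sq {N : ℕ} (m : Multiplicative (Fin N → Matrix (Fin 4) (Fin 4) F)) : m ^ 2 = 1 := by
  apply Multiplicative.toAdd.injective
  funext i
  haveI := H.charTwo
  rw [pow_two, toAdd_mul, Pi.add_apply, toAdd_one, Pi.zero_apply]
  ext r c
  exact H.add_self _

theorem big_no_element [Finite F] (N : ℕ) {p q : ℕ} (hp : p.Prime) (hq : q.Prime) (hpq : p ≠ q) (hq2 : q ≠ 2)
    (h3 : q = 3 → p = 7 ∨ p = 13) (hp3 : p ≠ 3) (h2 : p = 2 → q = 13) (x : Big H N) : orderOf x ≠ p * q := by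
  intro hx
  haveI := H.finite_Sz
  have hr : orderOf x.right ∣ p * q := hx ▸ orderOf_map_dvd SemidirectProduct.rightHom x
  have hx2 : x ^ (orderOf x.right * 2) = 1 := by
    have hy : (x ^ orderOf x.right).right = 1 := by
      change SemidirectProduct.rightHom (x ^ orderOf x.right) = 1
      rw [map_pow]; exact pow_orderOf_eq_one x.right
    rw [pow_mul, big_eq_inl H hy, ← map_pow, big_sq H, map_one]
  have hdvd : p * q ∣ orderOf x.right * 2 := hx ▸ orderOf_dvd_of_pow_eq_one hx2
  by_cases hp2 : p = 2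
  · subst hp2
    obtain rfl := h2 rfl
    have h13 : 13 ∣ orderOf x.right :=
      (Nat.Coprime.dvd_mul_right (by norm_num : Nat.Coprime 13 2)).1 (dvd_trans (dvd_mul_left 13 2) hdvd)
    have ho : orderOf x.right = 13 := by
      obtain ⟨c, hc⟩ := h13
      rw [hc] at hr
      have hc2 : c ∣ 2 := Nat.dvd_of_mul_dvd_mul_left (k := 13) (by norm_num) (by rwa [mul_comm 2 13] at hr)
      rcases (Nat.dvd_prime Nat.prime_two).1 hc2 with rfl | rfl
      · exact hc
      · exact absurd hc (k_no_element H Nat.prime_two hq hpq hq2 h3 hp3 x.right)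
    have hm : (x ^ 13).right = 1 := by
      change SemidirectProduct.rightHom (x ^ 13) = 1
      rw [map_pow, ← ho]; exact pow_orderOf_eq_one x.right
    have hcomm : x * x ^ 13 = x ^ 13 * x := (Commute.self_pow x 13).eq
    have hl := congrArg SemidirectProduct.left hcomm
    rw [SemidirectProduct.mul_left, SemidirectProduct.mul_left, hm, map_one] at hl
    have hfix : rep H N x.right (x ^ 13).left = (x ^ 13).left := by
      simp only [MulAut.one_apply] at hl
      rw [mul_comm (x ^ 13).left x.left] at hl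
      exact mul_left_cancel hl
    have hkr : x.right.right = 1 := by
      have h1 : orderOf x.right.right ∣ 13 := ho ▸ orderOf_map_dvd SemidirectProduct.rightHom x.right
      have h2' : orderOf x.right.right ∣ 3 := by
        have h := orderOf_dvd_natCard x.right.right
        rwa [Nat.card_congr Multiplicative.toAdd, Nat.card_zmod] at h
      exact orderOf_eq_one_iff.1 (Nat.eq_one_of_dvd_coprimes (by norm_num : Nat.Coprime 13 3) h1 h2')
    have hkl : x.right = SemidirectProduct.inl x.right.left := by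
      conv_lhs => rw [← SemidirectProduct.inl_left_mul_inr_right x.right, hkr, map_one, mul_one]
    have hgo : orderOf x.right.left = 13 := by
      rw [← ho]; conv_rhs => rw [hkl, orderOf_injective _ SemidirectProduct.inl_injective]
    haveI := Fintype.ofFinite F
    have hnf := (not_fixed (by rw [← Nat.card_eq_fintype_card]; exact card_F H) (sq H) (fun z => pw_one z)
      (x.right.left.1 : Matrix (Fin 4) (Fin 4) F)
      (by rw [← Matrix.SpecialLinearGroup.coe_pow, ← SubmonoidClass.coe_pow, ← hgo, pow_orderOf_eq_one]; simp)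
      (fun h => by
        have : x.right.left = 1 := Subtype.ext (Subtype.ext h)
        rw [this, orderOf_one] at hgo
        norm_num at hgo)).2
    have hzero : (x ^ 13).left = 1 := Multiplicative.toAdd.injective (funext fun i => hnf _ (by
      have h1 := congrFun (congrArg Multiplicative.toAdd hfix) i
      have h0 : (SzOut.pwRing H (0 : ZMod (2 * 1 + 1))) = RingHom.id F := RingHom.ext fun a => H.pw_zero_index a
      simpa [rep, act, hkr, h0] using h1))
    have hx13 : x ^ 13 = 1 := by rw [big_eq_inl H hm, hzero, map_one]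
    have := orderOf_dvd_of_pow_eq_one hx13
    rw [hx] at this
    norm_num at this
  · have hodd : Nat.Coprime (p * q) 2 := Nat.Coprime.mul_left
      ((Nat.coprime_primes hp Nat.prime_two).2 hp2) ((Nat.coprime_primes hq Nat.prime_two).2 hq2)
    exact k_no_element H hp hq hpq hq2 h3 hp3 x.right (Nat.dvd_antisymm hr (hodd.dvd_mul_right.1 hdvd))

theorem big_exists_two [Finite F] (N : ℕ) {r : ℕ} (hr2 : Nat.Coprime 2 r) (k : K H) (hk : orderOf k = r)
    (X : Matrix (Fin 4) (Fin 4) F) (hX : X ≠ 0) (hfix : act H k X = X) (hN : 0 < N) :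
    ∃ g : Big H N, orderOf g = 2 * r := by
  set m : Multiplicative (Fin N → Matrix (Fin 4) (Fin 4) F) := .ofAdd fun _ => X with hm
  have hm2 : orderOf m = 2 := by
    haveI : Fact (Nat.Prime 2) := ⟨Nat.prime_two⟩
    refine orderOf_eq_prime (big_sq H m) fun h => hX ?_
    exact congrFun (congrArg Multiplicative.toAdd h) ⟨0, hN⟩
  have hcomm : Commute (SemidirectProduct.inl m : Big H N) (SemidirectProduct.inr k) := by
    refine SemidirectProduct.ext ?_ ?_
    · have : rep H N k m = m := Multiplicative.toAdd.injective (funext fun _ => hfix)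
      simp [this]
    · simp
  refine ⟨SemidirectProduct.inl m * SemidirectProduct.inr k, ?_⟩
  rw [hcomm.orderOf_mul_eq_mul_orderOf_of_coprime]
  · rw [orderOf_injective _ SemidirectProduct.inl_injective, orderOf_injective _ SemidirectProduct.inr_injective,
      hm2, hk]
  · rw [orderOf_injective _ SemidirectProduct.inl_injective, orderOf_injective _ SemidirectProduct.inr_injective,
      hm2, hk]
    exact hr2

theorem orderOf_gen : orderOf (Multiplicative.ofAdd (1 : ZMod (2 * 1 + 1))) = 3 := by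
  rw [orderOf_ofAdd_eq_addOrderOf, ZMod.addOrderOf_one]

/-- The element of order five with entries in the prime field. -/
noncomputable def five : Cfsg.Sz F 1 := H.ws * H.us 0 1

theorem five_val : ((five H).1 : Matrix (Fin 4) (Fin 4) F) =
    !![0, 0, 0, 1; 0, 0, 1, 0; 0, 1, 0, 1; 1, 0, 1, 1] := by
  rw [five, Subgroup.coe_mul, Matrix.SpecialLinearGroup.coe_mul]
  ext i j
  fin_cases i <;> fin_cases j <;> simp [SzHyp.ws, SzHyp.us, wm, um, ov, Matrix.mul_apply, Fin.sum_univ_four, th]

theorem five_map (f : F →+* F) : f.mapMatrix ((five H).1 : Matrix (Fin 4) (Fin 4) F) = (five H).1 := by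
  rw [five_val]
  ext i j
  fin_cases i <;> fin_cases j <;> simp

theorem orderOf_five : orderOf (five H) = 5 := by
  haveI : Fact (Nat.Prime 5) := ⟨by norm_num⟩
  haveI := H.charTwo
  let Z : Matrix (Fin 4) (Fin 4) (ZMod 2) := !![0, 0, 0, 1; 0, 0, 1, 0; 0, 1, 0, 1; 1, 0, 1, 1]
  have hZ : Z ^ 5 = 1 := by decide
  have hmap : (ZMod.castHom (dvd_refl 2) F).mapMatrix Z = ((five H).1 : Matrix (Fin 4) (Fin 4) F) := by
    rw [five_val]
    ext i j
    fin_cases i <;> fin_cases j <;> simp [Z]
  refine orderOf_eq_prime ?_ fun h => ?_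
  · refine Subtype.ext (Subtype.ext ?_)
    rw [SubmonoidClass.coe_pow, Matrix.SpecialLinearGroup.coe_pow, ← hmap, ← map_pow, hZ, map_one]
    simp
  · have h1 := congrArg (fun x : Cfsg.Sz F 1 => (x.1 : Matrix (Fin 4) (Fin 4) F) 0 0) h
    simp [five_val] at h1

theorem five_form : act H (SemidirectProduct.inl (five H)) (Cfsg.suzukiForm F) = Cfsg.suzukiForm F := by
  have h0 : (SzOut.pwRing H (0 : ZMod (2 * 1 + 1))) = RingHom.id F := RingHom.ext fun a => H.pw_zero_index a
  have h5 : act H (SemidirectProduct.inl (five H)) (Cfsg.suzukiForm F) =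
      ((five H).1 : Matrix (Fin 4) (Fin 4) F) * Cfsg.suzukiForm F *
        ((five H).1 : Matrix (Fin 4) (Fin 4) F).transpose := by
    simp only [act, SemidirectProduct.left_inl, SemidirectProduct.right_inl, toAdd_one, h0, five_map]
    simp
  rw [h5]
  haveI := H.charTwo
  let Z : Matrix (Fin 4) (Fin 4) (ZMod 2) := !![0, 0, 0, 1; 0, 0, 1, 0; 0, 1, 0, 1; 1, 0, 1, 1]
  let J : Matrix (Fin 4) (Fin 4) (ZMod 2) := !![0, 0, 0, 1; 0, 0, 1, 0; 0, 1, 0, 0; 1, 0, 0, 0]
  have hJ : Z * J * Z.transpose = J := by decide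
  have hmap : (ZMod.castHom (dvd_refl 2) F).mapMatrix Z = ((five H).1 : Matrix (Fin 4) (Fin 4) F) := by
    rw [five_val]
    ext i j
    fin_cases i <;> fin_cases j <;> simp [Z]
  have hJm : (ZMod.castHom (dvd_refl 2) F).mapMatrix J = Cfsg.suzukiForm F := by
    ext i j
    fin_cases i <;> fin_cases j <;> simp [J, Cfsg.suzukiForm]
  rw [← hmap, ← hJm, RingHom.mapMatrix_apply, ← Matrix.transpose_map, ← RingHom.mapMatrix_apply,
    ← RingHom.mapMatrix_apply, ← map_mul, ← map_mul, hJ]

theorem big_exists [Finite F] (N : ℕ) (hN : 0 < N) :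
    ∀ n ∈ edges, ∃ g : Big H N, orderOf g = n := by
  haveI := H.finite_Sz
  intro n hn
  simp only [edges, Finset.mem_insert, Finset.mem_singleton] at hn
  haveI : Fact (Nat.Prime 3) := ⟨Nat.prime_three⟩
  haveI : Fact (Nat.Prime 7) := ⟨by norm_num⟩
  have ht : orderOf (SemidirectProduct.inr (Multiplicative.ofAdd 1) : K H) = 3 := by
    rw [orderOf_injective _ SemidirectProduct.inr_injective]
    exact orderOf_gen
  rcases hn with rfl | rfl | rfl | rfl
  · refine big_exists_two H N (r := 3) (by norm_num) _ ht 1 one_ne_zero ?_ hN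
    simp [act]
  · refine big_exists_two H N (r := 5) (by norm_num) (SemidirectProduct.inl (five H)) ?_ _ ?_ (five_form H) hN
    · rw [orderOf_injective _ SemidirectProduct.inl_injective, orderOf_five]
    · intro h
      have := congrFun (congrFun h 0) 3
      simp [Cfsg.suzukiForm] at this
  · obtain ⟨k, hk⟩ := H.exists_unit_ne_one
    have hk7 := unit_pow_seven H k
    refine big_exists_two H N (r := 7) (by norm_num) (SemidirectProduct.inl (H.ds k)) ?_
      (Matrix.single 0 1 1) ?_ ?_ hN
    · rw [orderOf_injective _ SemidirectProduct.inl_injective]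
      refine orderOf_eq_prime ?_ fun h => hk ?_
      · show H.dsHom k ^ 7 = 1
        rw [← map_pow, show k ^ 7 = 1 from Units.ext (by simpa using hk7), map_one]
      · exact H.dsHom_injective (h.trans (map_one _).symm)
    · intro h
      have := congrFun (congrFun h 0) 1
      simp at this
    · have h0 : (SzOut.pwRing H (0 : ZMod (2 * 1 + 1))) = RingHom.id F := RingHom.ext fun a => H.pw_zero_index a
      have hs : (sq H).mapMatrix ((H.ds k).1 : Matrix (Fin 4) (Fin 4) F) = Matrix.diagonal fun i =>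
          (![(k : F) ^ 3, (k : F) ^ 2, ((k : F) ^ 2)⁻¹, ((k : F) ^ 3)⁻¹] i) ^ 2 := by
        rw [dm_eq_diagonal, RingHom.mapMatrix_apply, Matrix.diagonal_map (map_zero _)]
        congr 1
      simp only [act, SemidirectProduct.left_inl, SemidirectProduct.right_inl, toAdd_one, h0, hs,
        Matrix.diagonal_transpose]
      rw [dm_eq_diagonal]
      ext i j
      simp only [RingHom.mapMatrix_apply, RingHom.coe_id, Matrix.map_id, Matrix.mul_diagonal, Matrix.diagonal_mul]
      fin_cases i <;> fin_cases j <;> simp [← pow_mul, ← pow_add, hk7]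
  · have hfix : psi H (Multiplicative.ofAdd 1) (five H) = five H :=
      Subtype.ext (Subtype.ext ((psi_apply H _ _).trans (five_map H _)))
    have hcomm : Commute (SemidirectProduct.inl (five H) : K H)
        (SemidirectProduct.inr (Multiplicative.ofAdd 1)) := by
      refine SemidirectProduct.ext ?_ ?_
      · simp [hfix]
      · simp
    refine ⟨SemidirectProduct.inr (SemidirectProduct.inl (five H) *
      SemidirectProduct.inr (Multiplicative.ofAdd 1)), ?_⟩
    rw [orderOf_injective _ SemidirectProduct.inr_injective, hcomm.orderOf_mul_eq_mul_orderOf_of_coprime]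
    · rw [orderOf_injective _ SemidirectProduct.inl_injective, orderOf_five, ht]
    · rw [orderOf_injective _ SemidirectProduct.inl_injective, orderOf_five, ht]
      norm_num

end Suzuki

end Cfsg.Agent.H59.PSpSixThree
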