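import Cfsg.Agent.H71.SympSpectrum
import Cfsg.Agent.H71.SympOddModels
import Cfsg.Agent.H2.PrimeGraph
import Cfsg.Agent.H2.Card
import Cfsg.Agent.H59.PSpSixThree.SuzukiSide

/-!
Element orders in `PSp₆(3)`: the prime graph has the edges `2-3`, `2-5`, `2-7`, `3-5` only.
-/

set_option autoImplicit false
set_option linter.style.haveILetI false

namespace Cfsg.Agent.H59.PSpSixThree

open Cfsg.Agent.H71 Cfsg.Agent.H71.SympOddModels
open IsometryTwist (Fpf neg)

variable {F : Type*} [Field F] [Fintype F] (hF : Fintype.card F = 3)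

include hF

theorem card_psp : Nat.card (Cfsg.PSp 3 F) = 4585351680 := by
  have hc : Nat.card F = 3 := by rw [Nat.card_eq_fintype_card, hF]
  have h := Subgroup.card_eq_card_quotient_mul_card_subgroup
    (Subgroup.center (Matrix.symplecticGroup (Fin 3) F))
  rw [H2.card_sp, H2.card_center_sp (by norm_num), hc] at h
  simp only [Finset.prod_range_succ, Finset.prod_range_zero] at h
  norm_num at h
  show Nat.card (_ ⧸ Subgroup.center (Matrix.symplecticGroup (Fin 3) F)) = _
  omega

omit hF in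
theorem five_primes {p : ℕ} (hp : p.Prime) :
    p ∣ 2 ^ 9 * 3 ^ 9 * 5 * 7 * 13 ↔ (p = 2 ∨ p = 3 ∨ p = 5 ∨ p = 7 ∨ p = 13) := by
  constructor
  · intro h
    have e : ∀ {q : ℕ}, q.Prime → p ∣ q → p = q := fun hq h => (Nat.prime_dvd_prime_iff_eq hp hq).mp h
    rcases hp.dvd_mul.mp h with h | h
    · rcases hp.dvd_mul.mp h with h | h
      · rcases hp.dvd_mul.mp h with h | h
        · rcases hp.dvd_mul.mp h with h | h
          · exact Or.inl (e Nat.prime_two (hp.dvd_of_dvd_pow h))
          · exact Or.inr (Or.inl (e Nat.prime_three (hp.dvd_of_dvd_pow h)))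
        · exact Or.inr (Or.inr (Or.inl (e (by norm_num) h)))
      · exact Or.inr (Or.inr (Or.inr (Or.inl (e (by norm_num) h))))
    · exact Or.inr (Or.inr (Or.inr (Or.inr (e (by norm_num) h))))
  · rintro (rfl | rfl | rfl | rfl | rfl) <;> norm_num

theorem psp_prime_dvd_iff {p : ℕ} (hp : p.Prime) :
    p ∣ Nat.card (Cfsg.PSp 3 F) ↔ (p = 2 ∨ p = 3 ∨ p = 5 ∨ p = 7 ∨ p = 13) := by
  rw [card_psp hF, ← five_primes hp]
  norm_num

theorem psp_exists : ∀ n ∈ edges, ∃ g : Cfsg.PSp 3 F, orderOf g = n := by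
  have hodd : Odd (Fintype.card F) := by rw [hF]; decide
  haveI : Fact (Nat.Prime 3) := ⟨Nat.prime_three⟩
  haveI : Fact (Nat.Prime 5) := ⟨by norm_num⟩
  haveI : CharP F 3 := (CharP.charP_iff_prime_eq_zero Nat.prime_three).mpr (by
    rw [← hF]; exact FiniteField.cast_card_eq_zero F)
  have hpow : ∀ (g : Cfsg.PSp 3 F) (n : ℕ), n ∣ orderOf g → ∃ g : Cfsg.PSp 3 F, orderOf g = n :=
    fun g n h => ⟨_, orderOf_pow_orderOf_div (orderOf_ne_zero_iff.mpr (isOfFinOrder_of_finite g)) h⟩
  intro n hn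
  simp only [edges, Finset.mem_insert, Finset.mem_singleton] at hn
  rcases hn with rfl | rfl | rfl | rfl
  · obtain ⟨g, -, h3, h2⟩ := SympSpectrum.exists_Y2 (F := F) (m := 3) hodd 3 true (d := 1) (k := 3)
      le_rfl (by norm_num) rfl
    refine hpow g 6 ?_
    have h3' : 3 ∣ orderOf g := (dvd_pow_self 3 (Nat.clog_pos (by norm_num) (by norm_num)).ne').trans h3
    exact (by norm_num : Nat.Coprime 2 3).mul_dvd_of_dvd_of_dvd h2 h3'
  · obtain ⟨T, hT⟩ := SympSpectrum.exists_torus (F := F) hodd true (D := 2) (by norm_num)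
    obtain ⟨g, h2, hg, -⟩ := SympSpectrum.exists_blocks_absorb hodd (m := 3) (a := 2) (b := 1)
      (by norm_num) le_rfl rfl T (1 : Matrix.symplecticGroup (Fin 1) F)
    refine hpow g 10 ?_
    have h5 := hg _ hT
    rw [SympBlocks.half, if_pos rfl, hF] at h5
    exact (by norm_num : Nat.Coprime 2 5).mul_dvd_of_dvd_of_dvd h2 h5
  · obtain ⟨g, hg⟩ := SympSpectrum.exists_S (F := F) (m := 3) hodd true (by norm_num)
    rw [SympBlocks.half, if_pos rfl, hF] at hg
    exact hpow g 14 hg
  · have h5 : ((5 : ℕ) : F) ≠ 0 := by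
      rw [Ne, CharP.cast_eq_zero_iff F 3 5]
      norm_num
    have hord : orderOf (Nat.card F : ZMod 5) ∣ 2 * 2 := by
      rw [Nat.card_eq_fintype_card, hF]
      exact orderOf_dvd_of_pow_eq_one (by rw [← Nat.cast_pow, ← Nat.cast_one, ZMod.natCast_eq_natCast_iff']; norm_num)
    obtain ⟨g, hg⟩ := H2.exists_orderOf_mul (F := F) (p := 3) (n := 3) h5 (by norm_num) (by norm_num)
      (η := 2) (by norm_num) (by norm_num) hord
    exact ⟨g, hg⟩

/-- An element of order `7` or `13` commutes with no involution of `Sp₆(3)` other than `-1`. -/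
theorem no_split {r : ℕ} (hr : r = 7 ∨ r = 13) (a z : IsoC 3 F) (ha : a ^ r = 1) (ha1 : a ≠ 1)
    (hz : z ^ 2 = 1) (hz1 : z ≠ 1) (hzn : z ≠ neg _) (hc : Commute a z) : False := by
  have hc' : Nat.card F = 3 := by rw [Nat.card_eq_fintype_card, hF]
  have h2 : ((2 : ℕ) : F) ≠ 0 := by
    haveI : Fact (Nat.Prime 3) := ⟨Nat.prime_three⟩
    haveI : CharP F 3 := (CharP.charP_iff_prime_eq_zero Nat.prime_three).mpr (by
      rw [← hF]; exact FiniteField.cast_card_eq_zero F)
    rw [Ne, CharP.cast_eq_zero_iff F 3 2]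
    norm_num
  obtain ⟨k, hk, h, hf, φ, hφ, hneg, hhz, hcom⟩ := exists_splitC z hz h2
  obtain ⟨⟨a₁, a₂⟩, hpa, -⟩ := hcom a hc
  have hk0 : k ≠ 0 := by
    rintro rfl
    haveI := subsingleton_isoC_zero (F := F)
    exact hz1 (by rw [← hhz, Subsingleton.elim h 1]; exact map_one φ)
  have hk3 : k ≠ 3 := by
    rintro rfl
    haveI : Subsingleton (IsoC (3 - 3) F) := subsingleton_isoC_zero (F := F)
    refine hzn ?_
    rw [← hhz, ← hneg, Subsingleton.elim (1 : IsoC (3 - 3) F) (neg _)]
    congr 2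
    refine IsometryTwist.iso_ext fun v => ?_
    have hv : ((h : VC 3 F ≃ₗ[F] VC 3 F) v + v) = 0 := by
      refine hf.fix _ ?_
      rw [map_add, ← LinearEquiv.mul_apply, ← pow_two, hf.pow, LinearEquiv.coe_one, id, add_comm]
    rw [IsometryTwist.neg_apply]
    exact eq_neg_of_add_eq_zero_left hv
  have hsmall : ∀ j : ℕ, j ≤ 2 → ∀ b : IsoC j F, b ^ r = 1 → b = 1 := by
    intro j hj b hb
    haveI : Finite (IsoC j F) := Finite.of_equiv _ (H2.spEquivIsometries j F).toEquiv
    have hcard : Nat.card (IsoC j F) ∣ 51840 := by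
      rw [← Nat.card_congr (H2.spEquivIsometries j F).toEquiv, H2.card_sp, hc']
      interval_cases j <;> simp [Finset.prod_range_succ]
    rw [← orderOf_eq_one_iff]
    refine Nat.eq_one_of_dvd_coprimes (a := r) (b := 51840) ?_ (orderOf_dvd_of_pow_eq_one hb)
      ((orderOf_dvd_natCard b).trans hcard)
    rcases hr with rfl | rfl <;> norm_num
  have hp : (a₁, a₂) ^ r = 1 := hφ (by rw [map_pow, hpa, ha, map_one])
  refine ha1 ?_
  rw [← hpa, hsmall k (by omega) a₁ (congrArg Prod.fst hp),
    hsmall (3 - k) (by omega) a₂ (congrArg Prod.snd hp)]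
  exact map_one φ

theorem psp_order_dvd (x : Cfsg.PSp 3 F) {r : ℕ} (hr : r = 7 ∨ r = 13) (hd : r ∣ orderOf x) :
    orderOf x ∣ 14 ∨ orderOf x ∣ 13 := by
  classical
  have hodd : Odd (Fintype.card F) := by rw [hF]; decide
  haveI : Fact (Nat.Prime 3) := ⟨Nat.prime_three⟩
  haveI : CharP F 3 := (CharP.charP_iff_prime_eq_zero Nat.prime_three).mpr (by
    rw [← hF]; exact FiniteField.cast_card_eq_zero F)
  obtain ⟨g, rfl⟩ := QuotientGroup.mk_surjective x
  rcases SympBlocks.idempotent_or_primary (by norm_num) g with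
    ⟨E, hE, h0, h1, hadj, hc⟩ | ⟨f, j, hf, hfm, hf0, hj, h⟩
  · exfalso
    set M := (g : SympBlocks.Mat 3 F) with hM
    set Z : SympBlocks.Mat 3 F := E + E - 1 with hZdef
    have hZ2 : Z * Z = 1 := by
      rw [hZdef]
      simp only [sub_mul, mul_sub, add_mul, mul_add, one_mul, mul_one, hE]
      abel
    have hadjZ : SympBlocks.adj Z = Z := by
      rw [hZdef, sub_eq_add_neg, SympBlocks.adj_add, SympBlocks.adj_add, hadj]
      congr 1
      rw [← neg_one_smul F (1 : SympBlocks.Mat 3 F), SympBlocks.adj_smul, SympBlocks.adj_one]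
    let z : Matrix.symplecticGroup (Fin 3) F := ⟨Z, SympBlocks.mem_of_adj (by rw [hadjZ, hZ2])⟩
    have hcz : Commute g z := by
      refine Subtype.ext ?_
      show M * Z = Z * M
      rw [hZdef, mul_sub, sub_mul, mul_add, add_mul, hc, mul_one, one_mul]
    have h2 : (2 : F) ≠ 0 := SympSpectrum.two_ne hodd
    have hdbl : ∀ X : SympBlocks.Mat 3 F, X + X = 0 → X = 0 := by
      intro X hX
      have : (2 : F) • X = 0 := by rw [two_smul, hX]
      exact (smul_eq_zero.mp this).resolve_left h2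
    have hz1 : z ≠ 1 := by
      intro hz
      have hv : E + E - 1 = 1 := congrArg Subtype.val hz
      refine h1 (sub_eq_zero.mp (hdbl (E - 1) ?_))
      rw [show E - 1 + (E - 1) = E + E - 1 - 1 by abel, hv, sub_self]
    set e := H2.spEquivIsometries 3 F
    have hzn : e z ≠ neg _ := by
      intro hz
      have hv : E + E - 1 = -1 := by
        refine Matrix.ext_of_mulVec_single fun i => ?_
        have := LinearEquiv.congr_fun (congrArg Subtype.val hz) (Pi.single i 1)
        rw [H2.spEquivIsometries_apply, IsometryTwist.neg_apply] at this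
        rw [Matrix.neg_mulVec, Matrix.one_mulVec]
        exact this
      refine h0 (hdbl E ?_)
      rw [show E + E = E + E - 1 + 1 by abel, hv, neg_add_cancel]
    have hr1 : r ∣ orderOf g := hd.trans (orderOf_map_dvd (QuotientGroup.mk' _) g)
    have hga : orderOf (g ^ (orderOf g / r)) = r :=
      orderOf_pow_orderOf_div (orderOf_ne_zero_iff.mpr (isOfFinOrder_of_finite g)) hr1
    refine no_split hF hr (e (g ^ (orderOf g / r))) (e z) ?_ ?_ ?_ ?_ hzn ((hcz.pow_left _).map e)
    · rw [← map_pow, orderOf_dvd_iff_pow_eq_one.mp hga.dvd, map_one]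
    · intro h'
      rw [EmbeddingLike.map_eq_one_iff] at h'
      rw [h', orderOf_one] at hga
      rcases hr with rfl | rfl <;> simp at hga
    · rw [← map_pow, show z ^ 2 = 1 from Subtype.ext (by rw [pow_two]; exact hZ2), map_one]
    · rwa [Ne, EmbeddingLike.map_eq_one_iff]
  · rcases SympBlocks.order_dvd_of_primary (by norm_num) hodd 3 g f j hf hfm hf0 hj h with
      hu | ⟨s, D, k, hD, hk, hDk, hB⟩
    · exfalso
      have h' : r ∣ 9 := (hd.trans hu).trans (by rw [show Nat.clog 3 (2 * 3) = 2 by decide]; norm_num)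
      rcases hr with rfl | rfl <;> norm_num at h'
    · have hD3 : D ≤ 3 := Nat.le_of_dvd (by norm_num) ⟨k, hDk.symm⟩
      rw [hF] at hB
      interval_cases D
      · exfalso
        obtain rfl : k = 3 := by omega
        have h' : orderOf (QuotientGroup.mk g : Cfsg.PSp 3 F) ∣ 6 := by
          refine hB.trans ?_
          rw [show Nat.clog 3 3 = 1 by decide]
          cases s <;> simp [SympBlocks.half]
        rcases hr with rfl | rfl <;> have := hd.trans h' <;> norm_num at this
      · omega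
      · obtain rfl : k = 1 := by omega
        cases s
        · exact Or.inr (by simpa [SympBlocks.half] using hB)
        · exact Or.inl (by simpa [SympBlocks.half] using hB)

theorem psp_no_element {p q : ℕ} (hp : p = 7 ∨ p = 13) (hpq : p ≠ q) (hq : q.Prime)
    (hcase : p = 7 → q ≠ 2) (x : Cfsg.PSp 3 F) : orderOf x ≠ p * q := by
  intro hx
  have h2 := hq.two_le
  rcases psp_order_dvd hF x hp (hx ▸ dvd_mul_right p q) with h | h <;> rw [hx] at h <;>
    rcases hp with rfl | rfl
  · have : q ∣ 2 := Nat.dvd_of_mul_dvd_mul_left (by norm_num : 0 < 7) h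
    exact hcase rfl ((Nat.prime_dvd_prime_iff_eq hq Nat.prime_two).mp this)
  · have := Nat.le_of_dvd (by norm_num) h; omega
  · have := Nat.le_of_dvd (by norm_num) h; omega
  · have := Nat.le_of_dvd (by norm_num) h; omega

end Cfsg.Agent.H59.PSpSixThree
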